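import Cfsg.Agent.S1324
import Cfsg.Agent.H233.Rloc
import Cfsg.Prelude.Def_LieTypeChar

/-!
# S2187: the subgroup generated by the centralizers of the hyperplanes

`HypGen p E` : the subgroup of `G` generated by the centralizers of the hyperplanes of `E ≤ Aut G`.

* `mem_of_fix` : it contains the elements fixed by a subgroup of index at most `p`;
* `mono` : `E ≤ E'` implies `HypGen p E' ≤ HypGen p E`;
* `map_hypGen` : equivariance under automorphisms;
* `inv_le` : it contains the `E`-invariant `p'`-subgroups;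
* `top_of_filt` : the isotropic case: if `E` normalises a nontrivial `r`-subgroup of a simple group with a filtered
  root group datum of characteristic `r ≠ p`, then `HypGen p E = ⊤`.
-/

set_option autoImplicit false

namespace Cfsg.Agent.H522.Gen

open Cfsg

universe u

section defs

variable {G : Type u} [Group G]

/-- the subgroup generated by the centralizers of the hyperplanes of `E` -/
def HypGen (p : ℕ) (E : Subgroup (MulAut G)) : Subgroup G :=
  Subgroup.closure {g : G | ∃ F : Subgroup (MulAut G), F ≤ E ∧ (F.subgroupOf E).index = p ∧ ∀ φ ∈ F, φ g = g}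

theorem mem_of_hyp {p : ℕ} {E F : Subgroup (MulAut G)} (hF : F ≤ E) (hi : (F.subgroupOf E).index = p) {g : G}
    (hg : ∀ φ ∈ F, φ g = g) : g ∈ HypGen p E :=
  Subgroup.subset_closure ⟨F, hF, hi, hg⟩

/-- `E` is a `p`-group -/
theorem isPGroup {p : ℕ} {E : Subgroup (MulAut G)} (hE : IsElementaryAbelian p E) : IsPGroup p E :=
  fun a => ⟨1, Subtype.ext (by rw [pow_one]; exact hE.2 a.1 a.2)⟩

/-- a subgroup of index at most `p` contains a hyperplane -/
theorem exists_hyp {p : ℕ} [hp : Fact p.Prime] {E : Subgroup (MulAut G)} [Finite E] (hE : IsElementaryAbelian p E)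
    (hE1 : p ≤ Nat.card E) {F : Subgroup (MulAut G)} (hF : F ≤ E) (hi : (F.subgroupOf E).index ≤ p) :
    ∃ F' : Subgroup (MulAut G), F' ≤ F ∧ F' ≤ E ∧ (F'.subgroupOf E).index = p := by
  obtain ⟨m, hm⟩ := IsPGroup.iff_card.1 (isPGroup hE)
  have hd : (F.subgroupOf E).index ∣ p ^ m := by
    rw [← hm]
    exact Subgroup.index_dvd_card _
  obtain ⟨j, hj, hj'⟩ := (Nat.dvd_prime_pow hp.out).1 hd
  have hj1 : j ≤ 1 := by
    by_contra hcon
    push Not at hcon
    have h1 : p ^ 2 ≤ p ^ j := Nat.pow_le_pow_right hp.out.pos (by omega)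
    have h2 : p < p ^ 2 := by
      have := hp.out.one_lt
      nlinarith
    omega
  rcases Nat.lt_or_ge j 1 with h0 | h0
  · -- `F = E`
    have hj0 : j = 0 := by omega
    subst hj0
    rw [pow_zero, Subgroup.index_eq_one, Subgroup.subgroupOf_eq_top] at hj'
    have hFE : F = E := le_antisymm hF hj'
    have hm1 : 1 ≤ m := by
      by_contra hcon
      have h0 : m = 0 := by omega
      rw [h0, pow_zero] at hm
      have := hp.out.one_lt
      omega
    obtain ⟨K, hK⟩ := Sylow.exists_subgroup_card_pow_prime (G := E) p (n := m - 1)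
      (by rw [hm]; exact pow_dvd_pow p (by omega))
    have h1 : K.map E.subtype ≤ E := by
      rintro _ ⟨k, -, rfl⟩
      exact k.2
    refine ⟨K.map E.subtype, hFE.symm ▸ h1, h1, ?_⟩
    have h2 : (K.map E.subtype).subgroupOf E = K := Subgroup.comap_map_eq_self_of_injective E.subtype_injective K
    rw [h2]
    have h3 := K.card_mul_index
    rw [hK, hm] at h3
    have h4 : p ^ m = p ^ (m - 1) * p := by
      rw [← pow_succ]
      congr 1
      omega
    rw [h4] at h3
    exact Nat.eq_of_mul_eq_mul_left (pow_pos hp.out.pos _) h3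
  · have hj0 : j = 1 := by omega
    subst hj0
    rw [pow_one] at hj'
    exact ⟨F, le_rfl, hF, hj'⟩

theorem mem_of_fix {p : ℕ} [hp : Fact p.Prime] {E : Subgroup (MulAut G)} [Finite E] (hE : IsElementaryAbelian p E)
    (hE1 : p ≤ Nat.card E) {F : Subgroup (MulAut G)} (hF : F ≤ E) (hi : (F.subgroupOf E).index ≤ p) {g : G}
    (hg : ∀ φ ∈ F, φ g = g) : g ∈ HypGen p E := by
  obtain ⟨F', h1, h2, h3⟩ := exists_hyp hE hE1 hF hi
  exact mem_of_hyp h2 h3 fun φ hφ => hg φ (h1 hφ)

/-- **Monotonicity.** -/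
theorem mono {p : ℕ} [hp : Fact p.Prime] {E E' : Subgroup (MulAut G)} [Finite E'] (hE : IsElementaryAbelian p E)
    (hE1 : p ≤ Nat.card E) (hEE' : E ≤ E') : HypGen p E' ≤ HypGen p E := by
  have hfin : Finite E := Finite.of_injective _ (Subgroup.inclusion_injective hEE')
  refine (Subgroup.closure_le _).2 ?_
  rintro g ⟨F, hF, hi, hg⟩
  refine mem_of_fix hE hE1 (F := F ⊓ E) inf_le_right ?_ fun φ hφ => hg φ hφ.1
  rw [Subgroup.inf_subgroupOf_right]
  have h1 : (F.subgroupOf E).index = F.relIndex E := rfl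
  have h2 : (F.subgroupOf E').index = F.relIndex E' := rfl
  rw [h1]
  rw [h2] at hi
  rw [← hi]
  have h3 : F.relIndex E' ≠ 0 := by
    rw [hi]
    exact hp.out.ne_zero
  exact Subgroup.relIndex_le_of_le_right hEE' h3

/-- equivariance -/
theorem map_hypGen (p : ℕ) (E : Subgroup (MulAut G)) (α : MulAut G) :
    (HypGen p E).map α.toMonoidHom = HypGen p (E.map (MulAut.conj α).toMonoidHom) := by
  have key : ∀ (E : Subgroup (MulAut G)) (α : MulAut G),
      (HypGen p E).map α.toMonoidHom ≤ HypGen p (E.map (MulAut.conj α).toMonoidHom) := by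
    intro E α
    rw [Subgroup.map_le_iff_le_comap]
    refine (Subgroup.closure_le _).2 ?_
    rintro g ⟨F, hF, hi, hg⟩
    refine mem_of_hyp (F := F.map (MulAut.conj α).toMonoidHom) (Subgroup.map_mono hF) ?_ ?_
    · have h1 : ((F.map (MulAut.conj α).toMonoidHom).subgroupOf (E.map (MulAut.conj α).toMonoidHom)).index =
          (F.map (MulAut.conj α).toMonoidHom).relIndex (E.map (MulAut.conj α).toMonoidHom) := rfl
      rw [h1, Subgroup.relIndex_map_map_of_injective F E (MulAut.conj α).injective]
      exact hi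
    · rintro _ ⟨φ, hφ, rfl⟩
      show (α * φ * α⁻¹) (α g) = α g
      rw [MulAut.mul_apply, MulAut.mul_apply]
      have h2 : α⁻¹ (α g) = g := by
        rw [← MulAut.mul_apply, inv_mul_cancel, MulAut.one_apply]
      rw [h2, hg φ hφ]
  apply le_antisymm (key E α)
  have h1 := key (E.map (MulAut.conj α).toMonoidHom) α⁻¹
  have h2 : (E.map (MulAut.conj α).toMonoidHom).map (MulAut.conj α⁻¹).toMonoidHom = E := by
    ext x
    rw [Subgroup.map_map]
    constructor
    · rintro ⟨y, hy, rfl⟩
      have : ((MulAut.conj α⁻¹).toMonoidHom.comp (MulAut.conj α).toMonoidHom) y = y := by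
        show α⁻¹ * (α * y * α⁻¹) * α⁻¹⁻¹ = y
        group
      rw [this]
      exact hy
    · intro hx
      refine ⟨x, hx, ?_⟩
      show α⁻¹ * (α * x * α⁻¹) * α⁻¹⁻¹ = x
      group
  rw [h2] at h1
  have h3 := Subgroup.map_mono (f := α.toMonoidHom) h1
  rw [Subgroup.map_map] at h3
  have h4 : α.toMonoidHom.comp (α⁻¹ : MulAut G).toMonoidHom = MonoidHom.id G := by
    ext x
    show α (α⁻¹ x) = x
    rw [← MulAut.mul_apply, mul_inv_cancel, MulAut.one_apply]
  rw [h4, Subgroup.map_id] at h3
  exact h3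

end defs

section coprime

variable {G : Type u} [Group G] [Finite G] {p : ℕ} [hp : Fact p.Prime]

/-- **Coprime generation**: the `E`-invariant `p'`-subgroups lie in `HypGen p E`. -/
theorem inv_le {E : Subgroup (MulAut G)} (hE : IsElementaryAbelian p E) (hE2 : p ^ 2 ≤ Nat.card E) {X : Subgroup G}
    (hX : ¬ p ∣ Nat.card X) (hEX : ∀ α ∈ E, X.map α.toMonoidHom = X) : X ≤ HypGen p E := by
  have hE1 : p ≤ Nat.card E := le_trans (by
    have := hp.out.one_lt
    nlinarith) hE2
  -- the semidirect product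
  let H := G ⋊[E.subtype] E
  have hfH : Finite H := Finite.of_equiv _ (SemidirectProduct.equivProd (φ := E.subtype)).symm
  let A : Subgroup H := (SemidirectProduct.inr (φ := E.subtype)).range
  let X' : Subgroup H := X.map (SemidirectProduct.inl (φ := E.subtype))
  have hA : IsElementaryAbelian p A := by
    refine ⟨?_, ?_⟩
    · constructor
      constructor
      rintro ⟨_, a, rfl⟩ ⟨_, b, rfl⟩
      have := hE.1
      apply Subtype.ext
      show SemidirectProduct.inr a * SemidirectProduct.inr b = SemidirectProduct.inr b * SemidirectProduct.inr a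
      rw [← map_mul, ← map_mul, this.is_comm.comm]
    · rintro _ ⟨a, rfl⟩
      rw [← map_pow, Subtype.ext (a1 := a ^ p) (a2 := 1) (hE.2 a.1 a.2), map_one]
  have hA2 : p ^ 2 ≤ Nat.card A := by
    have h1 : Nat.card A = Nat.card E :=
      (Nat.card_congr (MonoidHom.ofInjective (f := SemidirectProduct.inr (φ := E.subtype))
        SemidirectProduct.inr_injective).toEquiv).symm
    rw [h1]
    exact hE2
  have hX' : ¬ p ∣ Nat.card X' := by
    have h1 : Nat.card X' = Nat.card X := Subgroup.card_map_of_injective SemidirectProduct.inl_injective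
    rw [h1]
    exact hX
  have hinl : ∀ (a : E) (g : G), (SemidirectProduct.inr a : H) * SemidirectProduct.inl g *
      (SemidirectProduct.inr a)⁻¹ = SemidirectProduct.inl ((a : MulAut G) g) := by
    intro a g
    have := SemidirectProduct.inl_aut (φ := E.subtype) a g
    rw [Subgroup.coe_subtype, map_inv] at this
    exact this.symm
  have hAX : A ≤ Subgroup.normalizer (X' : Set H) := by
    rintro _ ⟨a, rfl⟩
    rw [Subgroup.mem_normalizer_iff]
    have key : ∀ (a : E), ∀ x ∈ X', SemidirectProduct.inr a * x * (SemidirectProduct.inr a)⁻¹ ∈ X' := by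
      rintro a _ ⟨g, hg, rfl⟩
      rw [hinl]
      refine ⟨(a : MulAut G) g, ?_, rfl⟩
      have h1 := hEX a a.2
      rw [SetLike.mem_coe, ← h1]
      exact ⟨g, hg, rfl⟩
    intro x
    refine ⟨key a x, fun hx => ?_⟩
    have h1 := key a⁻¹ _ hx
    have e : (SemidirectProduct.inr a⁻¹ : H) * (SemidirectProduct.inr a * x * (SemidirectProduct.inr a)⁻¹) *
        (SemidirectProduct.inr a⁻¹)⁻¹ = x := by
      rw [map_inv]
      group
    rwa [e] at h1
  have hS := Cfsg.Agent.S1324.result p A X' hA hA2 hX' hAX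
  have hle : X' ≤ (HypGen p E).map (SemidirectProduct.inl (φ := E.subtype)) := by
    rw [hS]
    refine iSup_le ?_
    rintro ⟨B, hBA, hBi⟩ x ⟨⟨g, hg, rfl⟩, hc⟩
    refine ⟨g, ?_, rfl⟩
    -- the subgroup `F` of `E` corresponding to `B`
    let B0 : Subgroup E := B.comap (SemidirectProduct.inr (φ := E.subtype))
    let F : Subgroup (MulAut G) := B0.map E.subtype
    have hFE : F ≤ E := by
      rintro _ ⟨k, -, rfl⟩
      exact k.2
    have hFs : F.subgroupOf E = B0 := Subgroup.comap_map_eq_self_of_injective E.subtype_injective B0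
    have hi : (F.subgroupOf E).index ≤ p := by
      rw [hFs]
      have h1 : B0.index = B.relIndex A := by
        show (B.comap (SemidirectProduct.inr (φ := E.subtype))).index = _
        rw [Subgroup.index_comap]
      rw [h1]
      exact hBi
    refine mem_of_fix hE hE1 hFE hi ?_
    rintro _ ⟨b, hb, rfl⟩
    have hb' : SemidirectProduct.inr b ∈ B := hb
    have h1 := Subgroup.mem_centralizer_iff.1 hc _ hb'
    have h2 := hinl b g
    have h3 : (SemidirectProduct.inr b : H) * SemidirectProduct.inl g * (SemidirectProduct.inr b)⁻¹ =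
        SemidirectProduct.inl g := by
      rw [h1]
      group
    rw [h3] at h2
    exact (SemidirectProduct.inl_injective h2).symm
  intro x hx
  obtain ⟨y, hy, e⟩ := hle ⟨x, hx, rfl⟩
  rwa [← SemidirectProduct.inl_injective e]

omit [Finite G] in
theorem not_dvd_card_of_isPGroup {r : ℕ} [hr : Fact r.Prime] (hpr : p ≠ r) {Z : Subgroup G} [Finite Z]
    (hZ : IsPGroup r Z) : ¬ p ∣ Nat.card Z := by
  intro hd
  obtain ⟨m, hm⟩ := IsPGroup.iff_card.1 hZ
  rw [hm] at hd
  exact hpr ((Nat.prime_dvd_prime_iff_eq hp.out hr.out).1 (hp.out.dvd_of_dvd_pow hd))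

/-- **The isotropic case** for the groups with a filtered root group datum. -/
theorem top_of_filt [IsSimpleGroup G] {r : ℕ} [hr : Fact r.Prime] (hG : KFacts.RgdFilt.HasFilt r G)
    (hc : ∃ a b : G, a * b ≠ b * a) (hpr : p ≠ r) {E : Subgroup (MulAut G)} (hE : IsElementaryAbelian p E)
    (hE2 : p ^ 2 ≤ Nat.card E) {K : Subgroup G} (hK : IsPGroup r K) (hK1 : K ≠ ⊥)
    (hEK : ∀ α ∈ E, K.map α.toMonoidHom = K) : HypGen p E = ⊤ := by
  obtain ⟨V, V', hV, hV', h1, h2, h3⟩ := H233.Rloc.exists_pair hG hc hpr (isPGroup hE) hK hK1 hEK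
  rw [← top_le_iff, ← h3]
  exact sup_le (inv_le hE hE2 (not_dvd_card_of_isPGroup hpr hV) h1)
    (inv_le hE hE2 (not_dvd_card_of_isPGroup hpr hV') h2)

end coprime

end Cfsg.Agent.H522.Gen
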