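import Cfsg.Agent.H522.Gen.Hyp
import Cfsg.Agent.H818.Gen.Defs

/-!
# S2187: the isotropic case in terms of `H818.Gen.Gam`

* `hypGen_eq` : `HypGen p E = Gam p E` (definitional);
* `le_gam_of_inv` : the `E`-invariant `p'`-subgroups (`X.map α = X` for `α ∈ E`) lie in `Gam p E`;
* `gam_of_filt` : **OPP** : `HasFilt r G`, `E` normalises a nontrivial `r`-subgroup ⟹ `Gam p E = ⊤`;
* `gam_of_filt'` : the contrapositive: `Gam p E ≠ ⊤` ⟹ the only `E`-invariant `r`-subgroup is trivial.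
-/

set_option autoImplicit false

namespace Cfsg.Agent.H522.Gen

open Cfsg H818.Gen

universe u

variable {G : Type u} [Group G]

theorem hypGen_eq (p : ℕ) (E : Subgroup (MulAut G)) : HypGen p E = Gam p E := rfl

variable [Finite G] {p : ℕ} [hp : Fact p.Prime]

theorem le_gam_of_inv {E : Subgroup (MulAut G)} (hE : IsElementaryAbelian p E) (hE2 : p ^ 2 ≤ Nat.card E)
    {X : Subgroup G} (hX : ¬ p ∣ Nat.card X) (hEX : ∀ α ∈ E, X.map α.toMonoidHom = X) : X ≤ Gam p E :=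
  inv_le hE hE2 hX hEX

/-- **OPP** -/
theorem gam_of_filt [IsSimpleGroup G] {r : ℕ} [hr : Fact r.Prime] (hG : KFacts.RgdFilt.HasFilt r G)
    (hc : ∃ a b : G, a * b ≠ b * a) (hpr : p ≠ r) {E : Subgroup (MulAut G)} (hE : IsElementaryAbelian p E)
    (hE2 : p ^ 2 ≤ Nat.card E) {K : Subgroup G} (hK : IsPGroup r K) (hK1 : K ≠ ⊥)
    (hEK : ∀ α ∈ E, K.map α.toMonoidHom = K) : Gam p E = ⊤ :=
  top_of_filt hG hc hpr hE hE2 hK hK1 hEK

/-- the anisotropy of `E` when `Gam p E ≠ ⊤` -/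
theorem gam_of_filt' [IsSimpleGroup G] {r : ℕ} [hr : Fact r.Prime] (hG : KFacts.RgdFilt.HasFilt r G)
    (hc : ∃ a b : G, a * b ≠ b * a) (hpr : p ≠ r) {E : Subgroup (MulAut G)} (hE : IsElementaryAbelian p E)
    (hE2 : p ^ 2 ≤ Nat.card E) (hne : Gam p E ≠ ⊤) {K : Subgroup G} (hK : IsPGroup r K)
    (hEK : ∀ α ∈ E, K.map α.toMonoidHom = K) : K = ⊥ := by
  by_contra hK1
  exact hne (gam_of_filt hG hc hpr hE hE2 hK hK1 hEK)

end Cfsg.Agent.H522.Gen
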