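import Cfsg.Agent.H522.Gen.UNon

/-!
# S2187, unitary row: the case `p ∤ r + 1`
-/

set_option autoImplicit false
set_option linter.unusedSectionVars false

namespace Cfsg.Agent.H522.Gen.U

open Cfsg.Agent.H847.Bs Cfsg.Agent.H900.Gen Polynomial

universe u v

variable {F : Type u} {V : Type v} [Field F] [AddCommGroup V] [Module F V]
variable [Finite F] [FiniteDimensional F V] {Φ : Frm F V} {A : Subgroup (V ≃ₗ[F] V)} {p r : ℕ}
variable {S : Set (Submodule F V)} {U : Submodule F V}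

/-- the elements of order dividing `p` -/
def omg (A : Subgroup (V ≃ₗ[F] V)) (p : ℕ) (hc : ∀ a ∈ A, ∀ b ∈ A, a * b = b * a) : Subgroup (V ≃ₗ[F] V) where
  carrier := {a | a ∈ A ∧ a ^ p = 1}
  mul_mem' := by
    rintro a b ⟨ha, ha'⟩ ⟨hb, hb'⟩
    exact ⟨A.mul_mem ha hb, by rw [(show Commute a b from hc a ha b hb).mul_pow, ha', hb', one_mul]⟩
  one_mem' := ⟨A.one_mem, one_pow _⟩
  inv_mem' := by
    rintro a ⟨ha, ha'⟩
    exact ⟨A.inv_mem ha, by rw [inv_pow, ha', inv_one]⟩

theorem ea_omg (hA : Pa Φ p A) : Ea Φ p (omg A p hA.comm) where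
  le := fun _ ha => hA.le ha.1
  comm := fun a ha b hb => hA.comm a ha.1 b hb.1
  pow := fun _ ha => ha.2
  prime := hA.prime
  odd := hA.odd
  char := hA.char

theorem exists_omg (hΦ : IsHerm r Φ) (hA : Pa Φ p A) (hV : Nontrivial V) (hpr : ¬ p ∣ r + 1) {a : V ≃ₗ[F] V} (ha : a ∈ A) :
    ∃ b ∈ omg A p hA.comm, ∃ z ∈ Scal Φ, a = b * z := by
  obtain ⟨hap, l, hl⟩ := hA.pow a ha
  have hlr := norm_of_scal hΦ hV hap hl
  have hcop : Nat.Coprime p (r + 1) := (Nat.Prime.coprime_iff_not_dvd hA.prime).2 hpr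
  have hr := two_le_herm hΦ
  obtain ⟨u, -, hu⟩ := Nat.exists_mul_mod_eq_one_of_coprime hcop (by omega : 1 < r + 1)
  have h1 : (l ^ u) ^ p = l := by
    rw [← pow_mul, mul_comm, ← Nat.div_add_mod (p * u) (r + 1), hu, pow_add, pow_mul, hlr, one_pow, one_mul, pow_one]
  have h2 : (l ^ u) ^ (r + 1) = 1 := by
    rw [← pow_mul, mul_comm, pow_mul, hlr, one_pow]
  have hz := sc_mem (V := V) hΦ h2
  set z := sc F V (l ^ u) (ne_zero_of_norm h2) with hzd
  have hzp : z ^ p = a ^ p := by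
    ext v
    rw [hzd, sc_pow, h1, hl]
  refine ⟨a * z⁻¹, ⟨A.mul_mem ha (A.inv_mem (hA.scal hz)), ?_⟩, z, hz, by group⟩
  rw [(show Commute a z⁻¹ from Scal.comm ((Scal Φ).inv_mem hz) a).mul_pow, inv_pow, hzp, mul_inv_cancel]

theorem inv_of_omg (hΦ : IsHerm r Φ) (hA : Pa Φ p A) (hV : Nontrivial V) (hpr : ¬ p ∣ r + 1) {Y : Submodule F V}
    (hY : InvA (omg A p hA.comm) Y) : InvA A Y := by
  intro a ha y hy
  obtain ⟨b, hb, z, ⟨-, c, hc⟩, rfl⟩ := exists_omg hΦ hA hV hpr ha
  rw [LinearEquiv.mul_apply, hc, map_smul]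
  exact Y.smul_mem c (hY b hb y hy)

theorem comm_aeval {a b : V →ₗ[F] V} (h : Commute b a) (P : F[X]) : Commute b (aeval a P) := by
  induction P using Polynomial.induction_on' with
  | add p q hp hq =>
    rw [map_add]
    exact hp.add_right hq
  | monomial n c =>
    rw [aeval_monomial]
    exact (Algebra.commute_algebraMap_right c b).mul_right (h.pow_right n)

/-- the field generated by an element of order `p` -/
theorem dvd_card {X : Submodule F V} {a : V ≃ₗ[F] V} (hp : p.Prime) (h : Inv a X) (hap : a ^ p = 1) (hX0 : X ≠ ⊥)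
    (hirr : ∀ Z ≤ X, Inv a Z → Z = ⊥ ∨ Z = X) (hnt : ∃ x ∈ X, a x ≠ x) :
    ∃ d : ℕ, 1 ≤ d ∧ d ≤ Module.finrank F X ∧ p ∣ Nat.card F ^ d - 1 := by
  have hf := minpoly_irr hX0 h hirr
  have : Fact (Irreducible (minpoly F (rs a h))) := ⟨hf⟩
  have hfd : Module.Finite F (AdjoinRoot (minpoly F (rs a h))) := (AdjoinRoot.powerBasis hf.ne_zero).finite
  have hfin : Finite (AdjoinRoot (minpoly F (rs a h))) := Module.finite_of_finite F
  have hz := root_prim hp h hap hf hnt (Ω := AdjoinRoot (minpoly F (rs a h))) (z := AdjoinRoot.root _) (by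
    rw [aeval_def, AdjoinRoot.algebraMap_eq, AdjoinRoot.eval₂_root])
  refine ⟨(minpoly F (rs a h)).natDegree, hf.natDegree_pos, ?_, ?_⟩
  · have h2 : minpoly F (rs a h) ∣ (rs a h).charpoly := LinearMap.minpoly_dvd_charpoly _
    have h3 := natDegree_le_of_dvd h2 (LinearMap.charpoly_monic _).ne_zero
    rwa [LinearMap.charpoly_natDegree] at h3
  · have h4 : Nat.card (AdjoinRoot (minpoly F (rs a h))) = Nat.card F ^ (minpoly F (rs a h)).natDegree := by
      rw [Module.natCard_eq_pow_finrank (K := F), (AdjoinRoot.powerBasis hf.ne_zero).finrank,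
        AdjoinRoot.powerBasis_dim]
    rw [← h4]
    have := Fintype.ofFinite (AdjoinRoot (minpoly F (rs a h)))
    refine hz.dvd_of_pow_eq_one _ ?_
    rw [Nat.card_eq_fintype_card]
    exact FiniteField.pow_card_sub_one_eq_one _ (hz.ne_zero hp.ne_zero)

theorem big_gd (hΦ : IsHerm r Φ) (hE : Ea Φ p A) (hpr : ¬ p ∣ r + 1) (h7 : r = 2 → 7 ≤ p) {X : Submodule F V}
    (hX : Gd Φ A X) : Big Φ X := by
  obtain ⟨a, ha, hnt⟩ := hX.nt
  have hr := two_le_herm hΦ
  have haX : Inv a X := hX.inv a ha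
  have hirr : ∀ Z ≤ X, Inv a Z → Z = ⊥ ∨ Z = X := fun Z hZ hZi => hX.irr hE ha hnt hZ hZi
  have h0 : Module.finrank F X ≠ 0 := by
    intro h
    exact hX.ne (Submodule.finrank_eq_zero.1 h)
  -- the dimension is at least two
  have h1 : Module.finrank F X ≠ 1 := by
    intro h
    obtain ⟨x, hx, hax⟩ := hnt
    have hx0 : x ≠ 0 := by
      rintro rfl
      exact hax (map_zero a)
    have h2 := (finrank_eq_one_iff_of_nonzero' (⟨x, hx⟩ : X) (fun e => hx0 (congrArg Subtype.val e))).1 h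
    obtain ⟨c, hc⟩ := h2 ⟨a x, haX x hx⟩
    have hc' : c • x = a x := congrArg Subtype.val hc
    have hcX : ∀ y ∈ X, a y = c • y := by
      intro y hy
      obtain ⟨d, hd⟩ := h2 ⟨y, hy⟩
      have hd' : d • x = y := congrArg Subtype.val hd
      rw [← hd', map_smul, ← hc', smul_smul, smul_smul, mul_comm]
    have hcn := norm_of_scalar hΦ (hE.le ha) hX.nd hX.ne hcX
    have hcp : c ^ p = 1 := by
      have h3 : ∀ n : ℕ, (a ^ n) x = c ^ n • x := by
        intro n
        induction n with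
        | zero => rw [pow_zero, pow_zero, one_smul]; rfl
        | succ n ih => rw [pow_succ, LinearEquiv.mul_apply, hcX x hx, map_smul, ih, smul_smul, pow_succ, mul_comm]
      have h4 := h3 p
      rw [hE.pow a ha] at h4
      have h5 : (c ^ p - 1) • x = 0 := by
        rw [sub_smul, ← h4, one_smul]
        exact sub_self _
      rcases smul_eq_zero.1 h5 with h6 | h6
      · exact sub_eq_zero.1 h6
      · exact absurd h6 hx0
    have h5 := orderOf_dvd_of_pow_eq_one hcp
    have h6 := orderOf_dvd_of_pow_eq_one hcn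
    rcases (Nat.dvd_prime hE.prime).1 h5 with h7 | h7
    · rw [orderOf_eq_one_iff] at h7
      rw [h7, one_smul] at hc'
      exact hax hc'.symm
    · rw [h7] at h6
      exact hpr h6
  by_cases h3 : 3 ≤ Module.finrank F X
  · exact big_of hΦ h3
  · have h2 : Module.finrank F X = 2 := by omega
    refine Or.inr (Or.inl ⟨r, hΦ, ?_⟩)
    rw [Module.natCard_eq_pow_finrank (K := F) (V := X), h2, pow_two]
    refine Nat.mul_le_mul_right _ ?_
    rw [hΦ.card]
    by_cases hr2 : r = 2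
    · exfalso
      have hp7 := h7 hr2
      obtain ⟨d, hd1, hd2, hd⟩ := dvd_card hE.prime haX (hE.pow a ha) hX.ne hirr hnt
      rw [h2] at hd2
      rw [hΦ.card, hr2] at hd
      have hd' : d = 1 ∨ d = 2 := by omega
      rcases hd' with rfl | rfl
      · have := Nat.le_of_dvd (by norm_num) hd
        norm_num at this
        omega
      · norm_num at hd
        have h8 : p ∣ 3 * 5 := by norm_num; exact hd
        rcases (Nat.Prime.dvd_mul hE.prime).1 h8 with h9 | h9
        · have := Nat.le_of_dvd (by norm_num) h9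
          omega
        · have := Nat.le_of_dvd (by norm_num) h9
          omega
    · have : 3 ≤ r := by omega
      nlinarith

/-- `p ∤ r + 1` -/
theorem coprime_main (hΦ : IsHerm r Φ) (hA : Pa Φ p A) (hAn : Anis Φ A) (hne : A ≠ Scal Φ) (hV : Nontrivial V)
    (h7 : r = 2 → 7 ≤ p) (hpr : ¬ p ∣ r + 1) :
    ∃ A', A ≤ A' ∧ Pa Φ p A' ∧ ∀ N, NP Φ A' N → ∀ v g, Rv Φ v g → g ∈ N := by
  have hCl : Cl Φ := Or.inr (Or.inl ⟨r, hΦ⟩)
  have hE := ea_omg hA
  set A₀ := omg A p hA.comm with hA₀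
  obtain ⟨S, U, hd, hS, hU⟩ := exists_odec hCl hE fun Y hY hT => hAn Y (inv_of_omg hΦ hA hV hpr hY) hT
  have hSn : S.Nonempty := by
    by_contra h
    rw [Set.not_nonempty_iff_eq_empty] at h
    subst h
    have h1 := hd.span
    rw [iSup_of_empty, sup_bot_eq] at h1
    apply hne
    refine le_antisymm (fun a ha => ?_) hA.scal
    obtain ⟨b, hb, z, hz, rfl⟩ := exists_omg hΦ hA hV hpr ha
    have h2 : b = 1 := by
      ext v
      exact hU v (h1 ▸ trivial) b hb
    rw [h2, one_mul]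
    exact hz
  have hSi : ∀ X ∈ S, InvA A₀ X := fun X hX => (hS X hX).inv
  have hE' := ea_enl (U := U) hE hd hSi
  set E := enl Φ A₀ S U hSi with hEd
  have hmem : ∀ {g : V ≃ₗ[F] V}, g ∈ E ⊔ Scal Φ ↔ ∃ y ∈ E, ∃ z ∈ Scal Φ, y * z = g := Subgroup.mem_sup_of_normal_right
  have hScI : Scal Φ ≤ Φ.Iso := fun z hz => hz.1
  refine ⟨E ⊔ Scal Φ, ?_, ?_, ?_⟩
  · intro a ha
    obtain ⟨b, hb, z, hz, rfl⟩ := exists_omg hΦ hA hV hpr ha
    exact Subgroup.mul_mem_sup (le_enl hE hSi hU hb) hz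
  · refine ⟨sup_le hE'.le hScI, ?_, ?_, le_sup_right, hA.prime, hA.odd, hA.char⟩
    · intro a ha b hb
      obtain ⟨e, he, z, hz, rfl⟩ := hmem.1 ha
      obtain ⟨f, hf, w, hw, rfl⟩ := hmem.1 hb
      have c1 : Commute e f := hE'.comm e he f hf
      have c2 : ∀ g, Commute g z := fun g => Scal.comm hz g
      have c3 : ∀ g, Commute g w := fun g => Scal.comm hw g
      exact (c1.mul_right (c3 e)).mul_left ((c2 _).symm)
    · intro a ha
      obtain ⟨e, he, z, hz, rfl⟩ := hmem.1 ha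
      rw [(show Commute e z from Scal.comm hz e).mul_pow, hE'.pow e he, one_mul]
      exact (Scal Φ).pow_mem hz p
  · intro N hN v g hvg
    have hNH : NH Φ (Φ.Iso ⊓ slV F V) E N := by
      refine ⟨hN.le, fun g hg h => ?_, fun c hc H hH hgen g hg h => ?_⟩
      · refine hN.n1 g hg fun a ha => ?_
        obtain ⟨e, he, z, hz, rfl⟩ := hmem.1 ha
        have h1 : g * (e * z) * g⁻¹ = (g * e * g⁻¹) * z := by
          have h2 : z * g⁻¹ = g⁻¹ * z := (Scal.comm hz g⁻¹).symm
          rw [← mul_assoc g e z, mul_assoc (g * e) z g⁻¹, h2, mul_assoc (g * e)]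
        rw [h1]
        exact Subgroup.mul_mem_sup (h e he) hz
      · refine hN.n2 c ((le_sup_left : E ≤ E ⊔ Scal Φ) hc) (H ⊔ Scal Φ) (sup_le_sup_right hH _) le_sup_right ?_ g hg ?_
        · refine sup_le (hgen.trans (sup_le (le_sup_left.trans le_sup_left) le_sup_right)) (le_sup_right.trans le_sup_left)
        · intro f hf
          obtain ⟨e, he, z, hz, rfl⟩ := Subgroup.mem_sup_of_normal_right.1 hf
          rw [← mul_assoc, h e he, mul_assoc, Scal.comm hz, ← mul_assoc]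
    refine orbit_main hCl hE hd hS hSn (fun X hX => big_gd hΦ hE hpr h7 (hS X hX))
      (fun g hg k hk => comm_iso g k hg hk) hNH (fun X hX => ?_) hvg
    refine has1_of hΦ (fun d hdr => ?_) fun g hg hgl => mem_of_loc hCl hE hd hS hNH hX hg.1 hg hgl
    obtain ⟨a, ha, hnt⟩ := (hS X hX).nt
    have haX : Inv a X := (hS X hX).inv a ha
    have hirr : ∀ Z ≤ X, Inv a Z → Z = ⊥ ∨ Z = X := fun Z hZ hZi => (hS X hX).irr hE ha hnt hZ hZi
    have h2 : ∃ x ∈ X, a (a x) ≠ x := by
      obtain ⟨x, hx, hx1⟩ := hnt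
      refine ⟨x, hx, fun h => hx1 ?_⟩
      have h3 : (a ^ 2) x = x := by
        rw [pow_two]
        exact h
      have h4 : ¬ p ∣ 2 := fun h => hE.odd ((Nat.prime_dvd_prime_iff_eq hE.prime Nat.prime_two).1 h)
      exact fix_of_pow hE.prime (hE.pow a ha) h4 h3
    obtain ⟨y, hy, hyl, hyd, P, hP⟩ := exists_line hΦ (hS X hX).nd (hE.le ha) haX (hS X hX).ne hirr h2 hdr
    refine ⟨y, ?_, hy, fun x hx => hyl x fun w hw => hx w (Submodule.mem_sup_right hw), hyd⟩
    have hyX : ∀ w ∈ X, y w ∈ X := by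
      intro w hw
      rw [hP w hw, ← aeval_rs a haX P ⟨w, hw⟩]
      exact Subtype.mem _
    refine hNH.n1 y hy fun e he => ?_
    have hc : y * e = e * y := by
      refine ext_of_dec hd (fun u hu => ?_) fun Y hY w hw => ?_
      · have h3 : y u = u := hyl u fun x hx => hd.orthU ⟨X, hX⟩ u hu x hx
        rw [LinearEquiv.mul_apply, LinearEquiv.mul_apply, h3, he.2.2 u hu, h3]
      · obtain ⟨b, hb, hb'⟩ := he.2.1 Y hY
        rw [LinearEquiv.mul_apply, LinearEquiv.mul_apply]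
        by_cases h : Y = X
        · subst h
          rw [hb' w hw, hb' _ (hyX w hw), hP w hw, hP _ ((hS Y hY).inv b hb w hw)]
          have e1 : (b : V →ₗ[F] V) * aeval (a : V →ₗ[F] V) P = aeval (a : V →ₗ[F] V) P * (b : V →ₗ[F] V) := by
            have e2 : Commute (b : V →ₗ[F] V) (a : V →ₗ[F] V) := by
              have e3 := hE.comm b hb a ha
              exact congrArg (fun T : V ≃ₗ[F] V => (T : V →ₗ[F] V)) e3
            exact comm_aeval e2 P
          exact (congrArg (fun T : V →ₗ[F] V => T w) e1).symm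
        · have h3 : ∀ w ∈ Y, y w = w := fun w hw => hyl w fun x hx =>
            hd.orth ⟨Y, hY⟩ ⟨X, hX⟩ (fun e => h (congrArg Subtype.val e)) w hw x hx
          rw [h3 w hw, hb' w hw, h3 _ ((hS Y hY).inv b hb w hw)]
    rw [hc, mul_inv_cancel_right]
    exact he

end Cfsg.Agent.H522.Gen.U
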