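import Cfsg.Agent.H522.Gen.UClass

/-!
# S2187, unitary row: the nonsplit case

`p ∣ r + 1` and some `x ∈ A` has an `x ^ p` which is not the `p`-th power of a scalar isometry.
-/

set_option autoImplicit false
set_option linter.unusedSectionVars false

namespace Cfsg.Agent.H522.Gen.U

open Cfsg.Agent.H847.Bs Cfsg.Agent.H900.Gen Polynomial

universe u v

variable {F : Type u} {V : Type v} [Field F] [AddCommGroup V] [Module F V]

/-- the product of `E` and the cyclic group generated by `x` -/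
def mulz (E : Subgroup (V ≃ₗ[F] V)) (x : V ≃ₗ[F] V) (hx : ∀ e ∈ E, Commute e x) : Subgroup (V ≃ₗ[F] V) where
  carrier := {g | ∃ e ∈ E, ∃ j : ℤ, g = e * x ^ j}
  mul_mem' := by
    rintro _ _ ⟨e, he, j, rfl⟩ ⟨f, hf, k, rfl⟩
    refine ⟨e * f, E.mul_mem he hf, j + k, ?_⟩
    rw [zpow_add, mul_assoc, ← mul_assoc (x ^ j), ((hx f hf).zpow_right j).eq.symm]
    simp only [mul_assoc]
  one_mem' := ⟨1, E.one_mem, 0, by simp⟩
  inv_mem' := by
    rintro _ ⟨e, he, j, rfl⟩
    refine ⟨e⁻¹, E.inv_mem he, -j, ?_⟩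
    rw [mul_inv_rev, ← zpow_neg]
    exact ((hx e⁻¹ (E.inv_mem he)).zpow_right (-j)).eq.symm

theorem le_mulz {E : Subgroup (V ≃ₗ[F] V)} {x : V ≃ₗ[F] V} (hx : ∀ e ∈ E, Commute e x) : E ≤ mulz E x hx :=
  fun e he => ⟨e, he, 0, by simp⟩

theorem mem_mulz {E : Subgroup (V ≃ₗ[F] V)} {x : V ≃ₗ[F] V} (hx : ∀ e ∈ E, Commute e x) : x ∈ mulz E x hx :=
  ⟨1, E.one_mem, 1, by simp⟩

theorem mulz_le {E : Subgroup (V ≃ₗ[F] V)} {x : V ≃ₗ[F] V} (hx : ∀ e ∈ E, Commute e x) {K : Subgroup (V ≃ₗ[F] V)}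
    (h1 : E ≤ K) (h2 : x ∈ K) : mulz E x hx ≤ K := by
  rintro _ ⟨e, he, j, rfl⟩
  exact K.mul_mem (h1 he) (K.zpow_mem h2 j)

theorem mulz_comm {E : Subgroup (V ≃ₗ[F] V)} {x : V ≃ₗ[F] V} (hx : ∀ e ∈ E, Commute e x) {g : V ≃ₗ[F] V}
    (hE : ∀ e ∈ E, Commute g e) (hg : Commute g x) {a : V ≃ₗ[F] V} (ha : a ∈ mulz E x hx) : Commute g a := by
  obtain ⟨e, he, j, rfl⟩ := ha
  exact (hE e he).mul_right (hg.zpow_right j)

variable [Finite F] [FiniteDimensional F V] {Φ : Frm F V} {A : Subgroup (V ≃ₗ[F] V)} {p r : ℕ}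
variable {S : Set (Submodule F V)}

/-- a diagonal isometry commutes with the isometries preserving the summands -/
theorem comm_x (hd : ODec Φ ⊥ (fun X : S => (X : Submodule F V))) {x : V ≃ₗ[F] V} (hxS : ∀ X ∈ S, Inv x X)
    {e : V ≃ₗ[F] V} (he : ∀ X ∈ S, ∃ c : F, ∀ y ∈ X, e y = c • y) : Commute e x := by
  refine ext_of_dec' hd fun X hX y hy => ?_
  obtain ⟨c, hc⟩ := he X hX
  rw [LinearEquiv.mul_apply, LinearEquiv.mul_apply, hc y hy, hc _ (hxS X hX y hy), map_smul]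

theorem comm_iso (g k : V ≃ₗ[F] V) (hg : g ∈ Φ.Iso) (hk : k ∈ Φ.Iso) : g * k * g⁻¹ * k⁻¹ ∈ Φ.Iso ⊓ slV F V := by
  refine ⟨Φ.Iso.mul_mem (Φ.Iso.mul_mem (Φ.Iso.mul_mem hg hk) (Φ.Iso.inv_mem hg)) (Φ.Iso.inv_mem hk), ?_⟩
  show LinearMap.det ((g * k * g⁻¹ * k⁻¹ : V ≃ₗ[F] V) : V →ₗ[F] V) = 1
  rw [Cfsg.Agent.H557.Bs.det_mul', Cfsg.Agent.H557.Bs.det_conj', ← Cfsg.Agent.H557.Bs.det_mul', mul_inv_cancel]
  exact LinearMap.det_id

/-- elements with the prescribed determinant -/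
theorem has1_of (hΦ : IsHerm r Φ) {N : Subgroup (V ≃ₗ[F] V)} {W : Submodule F V}
    (h1 : ∀ d : F, d ^ (r + 1) = 1 → ∃ y ∈ N, y ∈ Φ.Iso ∧ Loc Φ W y ∧ LinearMap.det (y : V →ₗ[F] V) = d)
    (h2 : ∀ g ∈ Φ.Iso ⊓ slV F V, Loc Φ W g → g ∈ N) : Has1 Φ N W := by
  intro g hg hgl
  obtain ⟨t, htN, ht, htl, htd⟩ := h1 _ (Cfsg.Agent.H557.Bs.det_norm hΦ hg)
  have hl : Loc Φ W (t⁻¹ * g) := by
    intro x hx
    rw [LinearEquiv.mul_apply, hgl x hx]
    have h3 : t x = x := htl x hx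
    have h4 : t⁻¹ (t x) = x := t.symm_apply_apply x
    rwa [h3] at h4
  have hdet : t⁻¹ * g ∈ Φ.Iso ⊓ slV F V := by
    refine ⟨Φ.Iso.mul_mem (Φ.Iso.inv_mem ht) hg, ?_⟩
    show LinearMap.det ((t⁻¹ * g : V ≃ₗ[F] V) : V →ₗ[F] V) = 1
    have h3 : LinearMap.det ((t * (t⁻¹ * g) : V ≃ₗ[F] V) : V →ₗ[F] V) = LinearMap.det (g : V →ₗ[F] V) := by
      rw [mul_inv_cancel_left]
    rw [Cfsg.Agent.H557.Bs.det_mul', htd] at h3
    have h4 : LinearMap.det (g : V →ₗ[F] V) ≠ 0 := ne_zero_of_norm (Cfsg.Agent.H557.Bs.det_norm hΦ hg)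
    exact mul_left_cancel₀ h4 (by rw [h3, mul_one])
  have h3 : g = t * (t⁻¹ * g) := by group
  rw [h3]
  exact N.mul_mem htN (h2 _ hdet hl)

theorem two_le_herm (hΦ : IsHerm r Φ) : 2 ≤ r := Cfsg.Agent.H557.Bs.two_le_of_card hΦ.card

theorem big_of (hΦ : IsHerm r Φ) {X : Submodule F V} (h : 3 ≤ Module.finrank F X) : Big Φ X := by
  refine Or.inr (Or.inl ⟨r, hΦ, ?_⟩)
  have hr := two_le_herm hΦ
  rw [Module.natCard_eq_pow_finrank (K := F) (V := X)]
  have h4 : 4 ≤ Nat.card F := by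
    rw [hΦ.card]
    nlinarith
  calc 9 * Nat.card F ≤ Nat.card F ^ 2 * Nat.card F := by
        refine Nat.mul_le_mul_right _ ?_
        nlinarith
    _ = Nat.card F ^ 3 := by ring
    _ ≤ Nat.card F ^ Module.finrank F X := Nat.pow_le_pow_right (by omega) h

/-- **The nonsplit case.** -/
theorem nonsplit_main (hΦ : IsHerm r Φ) (hA : Pa Φ p A) (hAn : Anis Φ A) (hV : Nontrivial V)
    (hpr : p ∣ r + 1) {x : V ≃ₗ[F] V} (hx : x ∈ A) (hnx : ∀ z ∈ Scal Φ, x ^ p ≠ z ^ p) :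
    ∃ A', A ≤ A' ∧ Pa Φ p A' ∧ ∀ N, NP Φ A' N → ∀ v g, Rv Φ v g → g ∈ N := by
  obtain ⟨S, hd, hS⟩ := exists_odec' hΦ hA.le hAn
  obtain ⟨ζ, hζ, hζr⟩ := exists_zeta hΦ.card hA.prime hpr
  obtain ⟨hxp, l, hl⟩ := hA.pow x hx
  have hxI := hA.le hx
  have hlr := norm_of_scal hΦ hV hxp hl
  have hnl : ∀ z : F, z ^ (r + 1) = 1 → z ^ p ≠ l := by
    intro z hz hzl
    refine hnx _ (sc_mem hΦ hz) ?_
    ext v
    rw [hl, sc_pow, hzl]
  have hl0 : l ≠ 0 := ne_zero_of_norm hlr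
  have hf := irr_poly hΦ.card hA.prime hA.odd hpr hlr hnl
  -- the elements of `A`
  have hA1 : ∀ a ∈ A, ∃ j : ℕ, ∃ e ∈ A, a = e * x ^ j ∧ ∀ X ∈ S, ∃ c : F, ∀ y ∈ X, e y = c • y := by
    intro a ha
    obtain ⟨hap, m, hm⟩ := hA.pow a ha
    obtain ⟨j, z, hz, hj⟩ := class_lemma hΦ.card hA.prime hlr (norm_of_scal hΦ hV hap hm) hnl
    have heA : a * (x ^ j)⁻¹ ∈ A := A.mul_mem ha (A.inv_mem (A.pow_mem hx j))
    refine ⟨j, a * (x ^ j)⁻¹, heA, by group, fun X hX => ?_⟩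
    refine scalar_on hA hζ (hS X hX) heA (sc_mem hΦ hz) ?_
    have hc : Commute a (x ^ j)⁻¹ := (show Commute a x from hA.comm a ha x hx).pow_right j |>.inv_right
    rw [hc.mul_pow, inv_pow, mul_inv_eq_iff_eq_mul]
    ext v
    have e1 : ∀ n : ℕ, ∀ v : V, ((x ^ j) ^ p) v = l ^ j • v := by
      intro _ v
      rw [← pow_mul, mul_comm, pow_mul]
      have : ∀ n : ℕ, ∀ v : V, ((x ^ p) ^ n) v = l ^ n • v := by
        intro n
        induction n with
        | zero => intro v; rw [pow_zero, pow_zero, one_smul]; rfl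
        | succ n ih => intro v; rw [pow_succ, LinearEquiv.mul_apply, hl, map_smul, ih, smul_smul, pow_succ, mul_comm]
      exact this j v
    rw [LinearEquiv.mul_apply, e1 0, map_smul, sc_pow, smul_smul, hm, hj, mul_comm]
  have hxS : ∀ X ∈ S, Inv x X := fun X hX => (hS X hX).inv x hx
  have hirr : ∀ X ∈ S, ∀ Z ≤ X, Inv x Z → Z = ⊥ ∨ Z = X := by
    intro X hX Z hZ hZi
    refine (hS X hX).min Z hZ fun a ha y hy => ?_
    obtain ⟨j, e, he, rfl, hsc⟩ := hA1 a ha
    obtain ⟨c, hc⟩ := hsc X hX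
    have h1 : ∀ n : ℕ, (x ^ n) y ∈ Z := by
      intro n
      induction n with
      | zero => exact hy
      | succ n ih =>
        rw [pow_succ', LinearEquiv.mul_apply]
        exact hZi _ ih
    rw [LinearEquiv.mul_apply, hc _ (hZ (h1 j))]
    exact Z.smul_mem c (h1 j)
  have hfX : ∀ w, aeval (x : V →ₗ[F] V) (Polynomial.X ^ p - C l : F[X]) w = 0 := by
    intro w
    rw [map_sub, map_pow, aeval_X, aeval_C, LinearMap.sub_apply, Module.algebraMap_end_apply]
    have h1 : ∀ n : ℕ, ((x : V →ₗ[F] V) ^ n) w = (x ^ n) w := by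
      intro n
      induction n with
      | zero => rfl
      | succ n ih =>
        rw [pow_succ', pow_succ', Module.End.mul_apply, ih]
        rfl
    rw [h1, hl, sub_self]
  have hdim : ∀ X ∈ S, 3 ≤ Module.finrank F X := by
    intro X hX
    have hne : Nontrivial X := (Submodule.nontrivial_iff_ne_bot).2 (hS X hX).ne
    have h0 : aeval (rs x (hxS X hX)) (Polynomial.X ^ p - C l : F[X]) = 0 := by
      ext w
      rw [aeval_rs, hfX]
      rfl
    have h1 : (Polynomial.X ^ p - C l : F[X]) = minpoly F (rs x (hxS X hX)) :=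
      minpoly.eq_of_irreducible_of_monic hf h0 (monic_X_pow_sub_C l hA.prime.ne_zero)
    have h2 : minpoly F (rs x (hxS X hX)) ∣ (rs x (hxS X hX)).charpoly := LinearMap.minpoly_dvd_charpoly _
    have h3 := natDegree_le_of_dvd h2 (LinearMap.charpoly_monic _).ne_zero
    rw [← h1, LinearMap.charpoly_natDegree, natDegree_X_pow_sub_C] at h3
    have h4 := hA.prime.two_le
    have h5 := hA.odd
    omega
  have h2x : ∀ X ∈ S, ∃ w ∈ X, x (x w) ≠ w := by
    intro X hX
    by_contra hcon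
    push Not at hcon
    obtain ⟨w, hw, hw0⟩ := (Submodule.ne_bot_iff _).1 (hS X hX).ne
    obtain ⟨k, hk⟩ := (hA.prime.odd_of_ne_two hA.odd)
    have h1 : ∀ n : ℕ, (x ^ (2 * n)) w = w := by
      intro n
      induction n with
      | zero => rfl
      | succ n ih =>
        have e1 : 2 * (n + 1) = 2 * n + 1 + 1 := by ring
        rw [e1, pow_succ, pow_succ, LinearEquiv.mul_apply, LinearEquiv.mul_apply, hcon w hw, ih]
    have h2 : x w = l • w := by
      have h3 := hl w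
      rw [hk, pow_succ', LinearEquiv.mul_apply, h1] at h3
      exact h3
    have h3 : ∀ n : ℕ, (x ^ n) w = l ^ n • w := by
      intro n
      induction n with
      | zero => rw [pow_zero, pow_zero, one_smul]; rfl
      | succ n ih => rw [pow_succ, LinearEquiv.mul_apply, h2, map_smul, ih, smul_smul, pow_succ, mul_comm]
    refine hnl l hlr ?_
    have h4 := hl w
    rw [h3] at h4
    have h5 : (l ^ p - l) • w = 0 := by rw [sub_smul, h4, sub_self]
    rcases smul_eq_zero.1 h5 with h6 | h6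
    · exact sub_eq_zero.1 h6
    · exact absurd h6 hw0
  have hcE : ∀ e ∈ enlS Φ p S hd, Commute e x := fun e he => comm_x hd hxS he.2.1
  have hPS := pa_enlS hA hd
  refine ⟨mulz (enlS Φ p S hd) x hcE, ?_, ?_, ?_⟩
  · intro a ha
    obtain ⟨j, e, he, rfl, hsc⟩ := hA1 a ha
    exact ⟨e, ⟨hA.le he, hsc, hA.pow e he⟩, j, by rw [zpow_natCast]⟩
  · refine ⟨mulz_le hcE (fun e he => he.1) hxI, ?_, ?_, ?_, hA.prime, hA.odd, hA.char⟩
    · intro a ha b hb
      refine mulz_comm hcE (fun e he => ?_) ?_ hb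
      · exact (mulz_comm hcE (fun f hf => (show Commute e f from comm_diag hd he.2.1 hf.2.1)) (hcE e he) ha).symm
      · exact (mulz_comm hcE (fun f hf => (hcE f hf).symm) (Commute.refl x) ha).symm
    · rintro _ ⟨e, he, j, rfl⟩
      rw [((hcE e he).zpow_right j).mul_pow]
      refine (Scal Φ).mul_mem he.2.2 ?_
      have e1 : (x ^ j) ^ p = (x ^ p) ^ j := by
        rw [← zpow_natCast, ← zpow_natCast, ← zpow_mul, ← zpow_mul, mul_comm]
      rw [e1]
      exact (Scal Φ).zpow_mem (hA.pow x hx) j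
    · exact hPS.scal.trans (le_mulz hcE)
  · intro N hN v g hvg
    have : Finite V := Module.finite_of_finite F
    have : Finite (Submodule F V) := Finite.of_injective (fun X : Submodule F V => (X : Set V)) SetLike.coe_injective
    have hne : Nonempty S := by
      by_contra h
      rw [not_nonempty_iff] at h
      have h1 := hd.span
      rw [iSup_of_empty, bot_sup_eq] at h1
      obtain ⟨v, hv⟩ := exists_ne (0 : V)
      have h2 : v ∈ (⊤ : Submodule F V) := trivial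
      rw [← h1, Submodule.mem_bot] at h2
      exact hv h2
    have hE0 : Scal Φ ≤ enlS Φ p S hd := hPS.scal
    -- isometries living on a summand
    have hloc : ∀ X ∈ S, Has1 Φ N X := by
      intro X hX
      have hXn := (hS X hX).nd
      refine has1_of hΦ (fun d hdr => ?_) fun g hg hgl => ?_
      · obtain ⟨y, hy, hyl, hyd, P, hP⟩ := exists_line hΦ hXn hxI (hxS X hX) (hS X hX).ne (hirr X hX) (h2x X hX) hdr
        refine ⟨y, ?_, hy, hyl, hyd⟩
        have hyX : ∀ w ∈ X, y w ∈ X := by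
          intro w hw
          rw [hP w hw, ← aeval_rs x (hxS X hX) P ⟨w, hw⟩]
          exact Subtype.mem _
        have hyY : ∀ Y ∈ S, Y ≠ X → ∀ w ∈ Y, y w = w := fun Y hY hYX w hw =>
          hyl w fun x hx => hd.orth ⟨Y, hY⟩ ⟨X, hX⟩ (fun e => hYX (congrArg Subtype.val e)) w hw x hx
        have hyS : ∀ Y ∈ S, Inv y Y := by
          intro Y hY w hw
          by_cases h : Y = X
          · subst h
            exact hyX w hw
          · rw [hyY Y hY h w hw]
            exact hw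
        have hyx : Commute y x := by
          refine ext_of_dec' hd fun Y hY w hw => ?_
          rw [LinearEquiv.mul_apply, LinearEquiv.mul_apply]
          by_cases h : Y = X
          · subst h
            rw [hP w hw, hP _ (hxS Y hY w hw)]
            have e1 : aeval (x : V →ₗ[F] V) P * (x : V →ₗ[F] V) = (x : V →ₗ[F] V) * aeval (x : V →ₗ[F] V) P := by
              have e1 : (x : V →ₗ[F] V) = aeval (x : V →ₗ[F] V) (Polynomial.X : F[X]) := (aeval_X _).symm
              nth_rw 2 [e1]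
              nth_rw 3 [e1]
              rw [← map_mul, ← map_mul, mul_comm]
            exact congrArg (fun T : V →ₗ[F] V => T w) e1
          · rw [hyY Y hY h w hw, hyY Y hY h _ (hxS Y hY w hw)]
        refine hN.n1 y hy fun a ha => ?_
        have h1 : Commute y a := mulz_comm hcE (fun e he => (comm_x hd hyS he.2.1).symm) hyx ha
        rw [h1.eq, mul_inv_cancel_right]
        exact ha
      · refine hN.n2 x (mem_mulz hcE) (enlS Φ p S hd) (le_mulz hcE) hE0 ?_ g hg fun f hf => ?_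
        · exact mulz_le hcE le_sup_left ((le_sup_right : Subgroup.zpowers x ≤ _) (Subgroup.mem_zpowers x))
        · obtain ⟨c, hc⟩ := hf.2.1 X hX
          exact comm_of_scalar hΦ hXn (hS X hX).ne hg.1 hgl hf.1 hc
    refine orbit_R hd hN.le (fun X => ?_) (fun X Y hne' => ?_) hvg
    · rw [bot_sup_eq]
      exact hloc X X.2
    · have hor := hd.orth X Y hne'
      have hWn := ndOn_sup (hS X X.2).nd (hS Y Y.2).nd hor
      have hW0 : (X : Submodule F V) ⊔ Y ≠ ⊥ := fun h => (hS X X.2).ne (le_bot_iff.1 (h ▸ le_sup_left))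
      refine mg_of (big_of hΦ (hdim X X.2)) (hS X X.2).nd (hS Y Y.2).nd hor hxI (hxS X X.2) (hxS Y Y.2) hf
        (fun w _ => hfX w) (fun w _ => hfX w) (hirr X X.2) (hS X X.2).ne (h2x X X.2) (hloc X X.2) ?_
      intro g hg k hk hgx hkx hgl hkl
      obtain ⟨t, ht, htl, htX⟩ := exists_cutS hΦ hζ hζr hd X.2
      have hcH : ∀ e ∈ hXY Φ p S hd ((X : Submodule F V) ⊔ Y), Commute e x := fun e he => hcE e he.1
      refine hN.n2 t (le_mulz hcE ht) (mulz (hXY Φ p S hd ((X : Submodule F V) ⊔ Y)) x hcH) ?_ ?_ ?_ _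
        (comm_iso g k hg hk) fun f hf => ?_
      · exact mulz_le hcH (fun e he => le_mulz hcE he.1) (mem_mulz hcE)
      · intro z hz
        obtain ⟨c, hc⟩ := hz.2
        exact le_mulz hcH ⟨hE0 hz, c, fun w _ => hc w⟩
      · refine mulz_le hcE ?_ ((le_sup_left : mulz _ x hcH ≤ _) (mem_mulz hcH))
        refine (gen_pair hΦ hA.prime hζ hd X.2 Y.2 (hS X X.2).ne (hS Y Y.2).ne ht htX fun y hy => ?_).trans
          (sup_le_sup_right (le_mulz hcH) _)
        exact htl y fun x hx => Φ.refl _ _ (hor x hx y hy)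
      · have c1 : Commute g f := mulz_comm hcH (fun e he => by
          obtain ⟨c, hc⟩ := he.2
          exact comm_of_scalar hΦ hWn hW0 hg hgl he.1.1 hc) hgx hf
        have c2 : Commute k f := mulz_comm hcH (fun e he => by
          obtain ⟨c, hc⟩ := he.2
          exact comm_of_scalar hΦ hWn hW0 hk hkl he.1.1 hc) hkx hf
        exact ((c1.mul_left c2).mul_left c1.inv_left).mul_left c2.inv_left

end Cfsg.Agent.H522.Gen.U
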